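import Mathlib
import Cfsg.Agent.Lib.Helper32.Scn.Tools
import Cfsg.Agent.Lib.Helper87.PGroupFrattini

/-!
# S1904, packages (A1e) and (A1q): common tools

Case (α) with `|omZ X| = 2`: `omZ X = {1, z} = Z(X)` contains all squares and commutators.
-/

set_option autoImplicit false

universe u

namespace Cfsg.Agent.Lib.Helper65.Scn

open Cfsg.Agent.Lib.Helper32.Scn

section

variable {X : Type u} [Group X]

/-- the commutator map `g ↦ [g, x]` is a homomorphism when commutators are central -/
def commHom (hcomm : ∀ x y : X, x * y * x⁻¹ * y⁻¹ ∈ omZ X) (x : X) : X →* X :=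
  MonoidHom.mk' (fun g => g * x * g⁻¹ * x⁻¹) (by
    intro g h
    have h1 := omZ_comm (hcomm h x) g
    calc g * h * x * (g * h)⁻¹ * x⁻¹ = g * (h * x * h⁻¹ * x⁻¹) * x * g⁻¹ * x⁻¹ := by group
      _ = (h * x * h⁻¹ * x⁻¹) * g * x * g⁻¹ * x⁻¹ := by rw [h1]
      _ = (h * x * h⁻¹ * x⁻¹) * (g * x * g⁻¹ * x⁻¹) := by group
      _ = (g * x * g⁻¹ * x⁻¹) * (h * x * h⁻¹ * x⁻¹) :=
          (omZ_comm (hcomm h x) (g * x * g⁻¹ * x⁻¹)).symm)

theorem commHom_apply (hcomm : ∀ x y : X, x * y * x⁻¹ * y⁻¹ ∈ omZ X) (x g : X) :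
    commHom hcomm x g = g * x * g⁻¹ * x⁻¹ := rfl

theorem mem_ker_commHom (hcomm : ∀ x y : X, x * y * x⁻¹ * y⁻¹ ∈ omZ X) (x g : X) :
    g ∈ (commHom hcomm x).ker ↔ g * x = x * g := by
  rw [MonoidHom.mem_ker, commHom_apply]
  constructor
  · intro h
    calc g * x = (g * x * g⁻¹ * x⁻¹) * x * g := by group
      _ = x * g := by rw [h, one_mul]
  · intro h
    rw [h]
    group

theorem commHom_index [Finite X] (hcomm : ∀ x y : X, x * y * x⁻¹ * y⁻¹ ∈ omZ X)
    (hV : Nat.card (omZ X) = 2) (x : X) (hx : ∃ g, g * x ≠ x * g) :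
    (commHom hcomm x).ker.index = 2 := by
  rw [Subgroup.index_ker]
  have hle : (commHom hcomm x).range ≤ omZ X := by
    rintro _ ⟨g, rfl⟩
    exact hcomm g x
  have hdvd : Nat.card (commHom hcomm x).range ∣ 2 := by
    rw [← hV]
    exact Subgroup.card_dvd_of_le hle
  have hne1 : Nat.card (commHom hcomm x).range ≠ 1 := by
    intro h1
    have hbot := Subgroup.eq_bot_of_card_eq _ h1
    obtain ⟨g, hg⟩ := hx
    apply hg
    rw [← mem_ker_commHom hcomm, MonoidHom.mem_ker]
    have hmem : commHom hcomm x g ∈ (commHom hcomm x).range := ⟨g, rfl⟩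
    rw [hbot, Subgroup.mem_bot] at hmem
    exact hmem
  rcases (Nat.dvd_prime Nat.prime_two).mp hdvd with h | h
  · exact absurd h hne1
  · exact h

/-- The working context: `omZ X = {1, z}` is the centre and contains squares and commutators. -/
structure A1 (X : Type u) [Group X] (z : X) : Prop where
  comm : ∀ x y : X, x * y * x⁻¹ * y⁻¹ ∈ omZ X
  sq : ∀ x : X, x * x ∈ omZ X
  cen : ∀ x : X, x ∈ Subgroup.center X → x ∈ omZ X
  zV : z ∈ omZ X
  z1 : z ≠ 1
  V2 : ∀ v ∈ omZ X, v = 1 ∨ v = z
  card : Nat.card (omZ X) = 2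

theorem exists_A1 {A : Subgroup (MulAut X)} (h : ACtx X A) (hV : Nat.card (omZ X) = 2) :
    ∃ z : X, A1 X z := by
  obtain ⟨z, hz1, hzu⟩ := (Nat.card_eq_two_iff' (1 : omZ X)).mp hV
  refine ⟨(z : X), h.comm, h.sq, h.cen, z.2, fun h1 => hz1 (Subtype.ext h1), ?_, hV⟩
  intro v hv
  by_cases h1 : v = 1
  · exact Or.inl h1
  · right
    have h2 := hzu ⟨v, hv⟩ (fun h => h1 (congrArg Subtype.val h))
    exact congrArg Subtype.val h2

variable {z : X}

theorem A1.zz (a : A1 X z) : z * z = 1 := omZ_sq a.zV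

theorem A1.zc (a : A1 X z) (g : X) : g * z = z * g := omZ_comm a.zV g

theorem A1.noncentral (a : A1 X z) {x : X} (hx : x ∉ omZ X) : ∃ g, g * x ≠ x * g := by
  by_contra hc
  push Not at hc
  exact hx (a.cen x (Subgroup.mem_center_iff.mpr hc))

theorem A1.ker_index [Finite X] (a : A1 X z) {x : X} (hx : x ∉ omZ X) :
    (commHom a.comm x).ker.index = 2 :=
  commHom_index a.comm a.card x (a.noncentral hx)

theorem A1.comm_eq (a : A1 X z) {x y : X} (hy : y ∉ (commHom a.comm x).ker) :
    y * x * y⁻¹ * x⁻¹ = z := by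
  rcases a.V2 _ (a.comm y x) with h | h
  · exfalso
    apply hy
    rw [MonoidHom.mem_ker, commHom_apply]
    exact h
  · exact h

/-- squares of `y` and `y * t` differ by `z` when `t` is an involution not commuting with `y` -/
theorem A1.pair (a : A1 X z) {t y : X} (ht : t * t = 1) (hy : y ∉ (commHom a.comm t).ker) :
    (y * t) * (y * t) = z * (y * y) := by
  have h1 := a.comm_eq hy
  have h2 := omZ_comm (a.sq y) t
  calc (y * t) * (y * t) = (y * t * y⁻¹ * t⁻¹) * (t * (y * y)) * t := by group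
    _ = z * ((y * y) * t) * t := by rw [h1, h2]
    _ = z * (y * y) * (t * t) := by group
    _ = z * (y * y) := by rw [ht, mul_one]

theorem A1.ne_of_not_mem (a : A1 X z) {t : X} (ht : t ∉ omZ X) :
    t ≠ 1 ∧ t ≠ z ∧ t * z ≠ 1 ∧ t * z ≠ z ∧ t * z ≠ t := by
  refine ⟨?_, ?_, ?_, ?_, ?_⟩
  · rintro rfl
    exact ht (omZ X).one_mem
  · rintro rfl
    exact ht a.zV
  · intro h
    apply ht
    have h1 : t = z⁻¹ := eq_inv_of_mul_eq_one_left h
    rw [h1]
    exact (omZ X).inv_mem a.zV
  · intro h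
    apply ht
    have h1 : t = 1 := by
      have h2 : t * z = 1 * z := by rw [one_mul]; exact h
      exact mul_right_cancel h2
    rw [h1]
    exact (omZ X).one_mem
  · intro h
    apply a.z1
    have h2 : t * z = t * 1 := by rw [mul_one]; exact h
    exact mul_left_cancel h2

theorem A1.card_four [DecidableEq X] (a : A1 X z) {t : X} (ht : t ∉ omZ X) :
    ({1, z, t, t * z} : Finset X).card = 4 := by
  obtain ⟨h1, h2, h3, h4, h5⟩ := a.ne_of_not_mem ht
  rw [Finset.card_insert_of_notMem, Finset.card_insert_of_notMem,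
    Finset.card_insert_of_notMem, Finset.card_singleton]
  · simp only [Finset.mem_singleton]
    exact fun h => h5 h.symm
  · simp only [Finset.mem_insert, Finset.mem_singleton, not_or]
    exact ⟨fun h => h2 h.symm, fun h => h4 h.symm⟩
  · simp only [Finset.mem_insert, Finset.mem_singleton, not_or]
    exact ⟨fun h => a.z1 h.symm, fun h => h1 h.symm, fun h => h3 h.symm⟩

/-- a subgroup of order at most four containing `z` and `t ∉ omZ X` is `{1, z, t, t * z}` -/
theorem A1.mem_four [Finite X] (a : A1 X z) {t : X} (ht : t ∉ omZ X) (E : Subgroup X)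
    (hzE : z ∈ E) (htE : t ∈ E) (hE : Nat.card E ≤ 4) :
    ∀ e ∈ E, e = 1 ∨ e = z ∨ e = t ∨ e = t * z := by
  classical
  have : Fintype X := Fintype.ofFinite X
  have hF : ({1, z, t, t * z} : Finset X).card = 4 := a.card_four ht
  have hsub : ({1, z, t, t * z} : Finset X) ⊆ Finset.univ.filter (· ∈ E) := by
    intro e he
    simp only [Finset.mem_insert, Finset.mem_singleton] at he
    rw [Finset.mem_filter]
    refine ⟨Finset.mem_univ _, ?_⟩
    rcases he with rfl | rfl | rfl | rfl
    · exact E.one_mem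
    · exact hzE
    · exact htE
    · exact E.mul_mem htE hzE
  have hcard : (Finset.univ.filter (· ∈ E)).card = Nat.card E := by
    rw [Nat.card_eq_fintype_card, Fintype.card_subtype]
  have heq := Finset.eq_of_subset_of_card_le hsub (by rw [hcard, hF]; exact hE)
  intro e he
  have h6 : e ∈ Finset.univ.filter (· ∈ E) := Finset.mem_filter.mpr ⟨Finset.mem_univ _, he⟩
  rw [← heq] at h6
  simpa using h6

/-- `X` is special: Frattini subgroup, centre and derived subgroup coincide. -/
theorem special_of [Finite X] (h2 : IsPGroup 2 X)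
    (hcen : ∀ x : X, x ∈ Subgroup.center X → x ∈ omZ X) (hsq : ∀ x : X, x * x ∈ omZ X)
    (hcomm : ∀ x y : X, x * y * x⁻¹ * y⁻¹ ∈ omZ X) (hder : ∀ v ∈ omZ X, v ∈ commutator X) :
    Cfsg.IsSpecial 2 X ∧ Subgroup.center X = omZ X := by
  have : Fact (Nat.Prime 2) := ⟨Nat.prime_two⟩
  have hZ : Subgroup.center X = omZ X := le_antisymm hcen (fun v hv => hv.1)
  have hC : commutator X = omZ X := by
    apply le_antisymm
    · rw [commutator_def, Subgroup.commutator_le]
      intro g _ k _
      exact hcomm g k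
    · exact hder
  have hF : frattini X = omZ X := by
    apply le_antisymm
    · have h1 := Cfsg.Agent.Lib.Helper87.frattini_le_ker_of_exponent (p := 2)
        (Abelianization.of (G := X)) (by
          intro g
          rw [← map_pow, ← MonoidHom.mem_ker, Abelianization.ker_of, pow_two]
          exact hder _ (hsq g))
      rw [Abelianization.ker_of, hC] at h1
      exact h1
    · rw [← hC, commutator_def, Subgroup.commutator_le]
      intro g _ k _
      exact Cfsg.Agent.Lib.Helper87.comm_mem_frattini h2 g k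
  exact ⟨⟨h2, hF.trans hZ.symm, hC.trans hZ.symm⟩, hZ⟩

end

end Cfsg.Agent.Lib.Helper65.Scn
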