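import Mathlib
import Cfsg.Agent.Lib.Helper65.Scn.A1Tools
import Cfsg.Agent.Lib.Helper45.Heis64Iso

/-!
# S1904, package (A1q): case (α), `|omZ X| = 2`, `|X| = 8`: the quaternion group
-/

set_option autoImplicit false

universe u

namespace Cfsg.Agent.Lib.Helper65.Scn

open Cfsg.Agent.Lib.Helper32.Scn

/-- Package (A1q) of S1904. -/
theorem lemA1q8 : LemA1q8.{u} := by
  intro X _ _ A h hV hX
  classical
  obtain ⟨z, a⟩ := exists_A1 h hV
  have : Fact (Nat.Prime 2) := ⟨Nat.prime_two⟩
  -- every involution is central
  have hno : ∀ t : X, t * t = 1 → t ∈ omZ X := by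
    intro t ht
    by_contra htV
    obtain ⟨C, hCdef⟩ : ∃ C : Subgroup X, C = (commHom a.comm t).ker := ⟨_, rfl⟩
    have hCmem : ∀ g, g ∈ C ↔ g * t = t * g := by
      intro g
      rw [hCdef]
      exact mem_ker_commHom a.comm t g
    have hCnot : ∀ g, g ∉ C → g ∉ (commHom a.comm t).ker := by
      intro g hg
      rw [← hCdef]
      exact hg
    have hCidx : C.index = 2 := by rw [hCdef]; exact a.ker_index htV
    have hCcard : Nat.card C = 4 := by
      have h1 := Subgroup.card_mul_index C
      rw [hCidx, hX] at h1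
      omega
    have htC : t ∈ C := (hCmem t).mpr rfl
    have hzC : z ∈ C := (hCmem z).mpr (a.zc t).symm
    have hC4 := a.mem_four htV C hzC htC (le_of_eq hCcard)
    have htz2 : t * z * (t * z) = 1 := by
      calc t * z * (t * z) = t * (z * t) * z := by group
        _ = t * (t * z) * z := by rw [← a.zc t]
        _ = (t * t) * (z * z) := by group
        _ = 1 := by rw [ht, a.zz, one_mul]
    obtain ⟨y0, hy0⟩ : ∃ y, y ∉ C := by
      by_contra hall
      push Not at hall
      have htop : C = ⊤ := by
        rw [eq_top_iff]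
        exact fun x _ => hall x
      rw [htop, Subgroup.index_top] at hCidx
      omega
    obtain ⟨y, hyC, hyy⟩ : ∃ y, y ∉ C ∧ y * y = z := by
      rcases a.V2 _ (a.sq y0) with h1 | h1
      · refine ⟨y0 * t, fun hc => hy0 ((C.mul_mem_cancel_right htC).mp hc), ?_⟩
        rw [a.pair ht (hCnot y0 hy0), h1, mul_one]
      · exact ⟨y0, hy0, h1⟩
    have hy4 : orderOf y = 4 := by
      have h1 : orderOf y = 2 ^ (1 + 1) := by
        apply orderOf_eq_prime_pow
        · rw [pow_one, pow_two, hyy]
          exact a.z1
        · have e : y ^ 2 ^ (1 + 1) = (y * y) * (y * y) := by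
            have e4 : (2 : ℕ) ^ (1 + 1) = 4 := by norm_num
            rw [e4]
            simp only [pow_succ, pow_zero, one_mul, mul_assoc]
          rw [e, hyy, a.zz]
      simpa using h1
    have hHidx : (Subgroup.zpowers y).index = 2 := by
      have h1 := Subgroup.card_mul_index (Subgroup.zpowers y)
      rw [Nat.card_zpowers, hy4, hX] at h1
      omega
    apply h.hyp.no_index_two (Subgroup.zpowers y) ?_ hHidx
    intro ψ hψ x hx
    have hw : ψ y ∈ Subgroup.zpowers y := by
      have hw2 : ψ y * ψ y = z := by
        rw [← map_mul, hyy]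
        exact h.fix ψ hψ z a.zV
      have hwC : ψ y ∉ C := by
        intro hc
        rcases hC4 _ hc with h1 | h1 | h1 | h1 <;> rw [h1] at hw2
        · rw [one_mul] at hw2
          exact a.z1 hw2.symm
        · rw [a.zz] at hw2
          exact a.z1 hw2.symm
        · rw [ht] at hw2
          exact a.z1 hw2.symm
        · rw [htz2] at hw2
          exact a.z1 hw2.symm
      have hyinv : y⁻¹ ∉ C := fun hh => hyC (by simpa using C.inv_mem hh)
      have hc : y⁻¹ * ψ y ∈ C :=
        (Subgroup.mul_mem_iff_of_index_two hCidx).mpr (iff_of_false hyinv hwC)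
      have hwy : ψ y = y * (y⁻¹ * ψ y) := by group
      rcases hC4 _ hc with h1 | h1 | h1 | h1
      · rw [hwy, h1, mul_one]
        exact Subgroup.mem_zpowers y
      · rw [hwy, h1, ← hyy]
        exact Subgroup.mul_mem _ (Subgroup.mem_zpowers y)
          (Subgroup.mul_mem _ (Subgroup.mem_zpowers y) (Subgroup.mem_zpowers y))
      · exfalso
        rw [hwy, h1, a.pair ht (hCnot y hyC), hyy, a.zz] at hw2
        exact a.z1 hw2.symm
      · exfalso
        rw [hwy, h1] at hw2
        have e : y * (t * z) * (y * (t * z)) = (y * t) * (y * t) * (z * z) := by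
          calc y * (t * z) * (y * (t * z)) = y * t * (z * (y * t)) * z := by group
            _ = y * t * ((y * t) * z) * z := by rw [← a.zc (y * t)]
            _ = (y * t) * (y * t) * (z * z) := by group
        rw [e, a.pair ht (hCnot y hyC), hyy, a.zz, one_mul] at hw2
        exact a.z1 hw2.symm
    obtain ⟨k, rfl⟩ := Subgroup.mem_zpowers_iff.mp hx
    rw [map_zpow]
    exact Subgroup.zpow_mem _ hw k
  -- the quaternion relations
  obtain ⟨x, hx⟩ : ∃ x : X, x ∉ omZ X := by
    by_contra hall
    push Not at hall
    have htop : omZ X = ⊤ := by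
      rw [eq_top_iff]
      exact fun x _ => hall x
    rw [htop, Subgroup.card_top, hX] at hV
    omega
  have hxx : x * x = z := by
    rcases a.V2 _ (a.sq x) with h1 | h1
    · exact absurd (hno x h1) hx
    · exact h1
  have hidx := a.ker_index hx
  obtain ⟨y, hy⟩ : ∃ y, y ∉ (commHom a.comm x).ker := by
    by_contra hall
    push Not at hall
    have htop : (commHom a.comm x).ker = ⊤ := by
      rw [eq_top_iff]
      exact fun g _ => hall g
    rw [htop, Subgroup.index_top] at hidx
    omega
  have hyV : y ∉ omZ X := by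
    intro hyV
    apply hy
    rw [mem_ker_commHom]
    exact (omZ_comm hyV x).symm
  have hyy : y * y = z := by
    rcases a.V2 _ (a.sq y) with h1 | h1
    · exact absurd (hno y h1) hyV
    · exact h1
  have hyx := a.comm_eq hy
  refine Cfsg.Agent.Lib.Helper45.Heis64.q8_of hX y x z a.zc a.zz a.z1 ?_ hyy hxx
  calc y * x = (y * x * y⁻¹ * x⁻¹) * x * y := by group
    _ = z * x * y := by rw [hyx]
    _ = x * y * z := by rw [mul_assoc, ← a.zc (x * y)]

end Cfsg.Agent.Lib.Helper65.Scn
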