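import Mathlib
import Cfsg.Agent.Lib.Helper65.Scn.A1Tools

/-!
# S1904, package (A1e): case (α), `|omZ X| = 2`, `|X| = 32`: extraspecial with `11` involutions
-/

set_option autoImplicit false

universe u

namespace Cfsg.Agent.Lib.Helper65.Scn

open Cfsg.Agent.Lib.Helper32.Scn

section

variable {X : Type u} [Group X] {z : X}

/-- (i) there is a non-central involution -/
theorem A1.exists_invol [Finite X] (a : A1 X z) (hX : Nat.card X = 32) :
    ∃ t : X, t * t = 1 ∧ t ∉ omZ X := by
  classical
  have : Fintype X := Fintype.ofFinite X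
  by_contra hcon
  push Not at hcon
  obtain ⟨x, hx⟩ : ∃ x : X, x ∉ omZ X := by
    by_contra hall
    push Not at hall
    have htop : omZ X = ⊤ := by
      rw [eq_top_iff]
      exact fun x _ => hall x
    have h2 := a.card
    rw [htop, Subgroup.card_top, hX] at h2
    omega
  have hxx : x * x = z := by
    rcases a.V2 _ (a.sq x) with h1 | h1
    · exact absurd (hcon x h1) hx
    · exact h1
  have hidx := a.ker_index hx
  have hcardC : Nat.card (commHom a.comm x).ker = 16 := by
    have h1 := Subgroup.card_mul_index (commHom a.comm x).ker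
    rw [hidx, hX] at h1
    omega
  have hfil : (Finset.univ.filter (· ∈ (commHom a.comm x).ker)).card = 16 := by
    rw [← hcardC, Nat.card_eq_fintype_card, Fintype.card_subtype]
  have hlt : ({1, x, z, x * z} : Finset X).card <
      (Finset.univ.filter (· ∈ (commHom a.comm x).ker)).card := by
    have h1 : ({1, x, z, x * z} : Finset X).card ≤ 4 := Finset.card_le_four
    omega
  obtain ⟨y, hyC, hyF⟩ := Finset.exists_mem_notMem_of_card_lt_card hlt
  simp only [Finset.mem_filter, Finset.mem_univ, true_and] at hyC
  simp only [Finset.mem_insert, Finset.mem_singleton, not_or] at hyF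
  obtain ⟨hy1, hyx, hyz, hyxz⟩ := hyF
  have hyxc : y * x = x * y := (mem_ker_commHom a.comm x y).mp hyC
  have hyV : y ∉ omZ X := by
    intro hyV
    rcases a.V2 _ hyV with h1 | h1
    · exact hy1 h1
    · exact hyz h1
  have hyy : y * y = z := by
    rcases a.V2 _ (a.sq y) with h1 | h1
    · exact absurd (hcon y h1) hyV
    · exact h1
  have hxy2 : x * y * (x * y) = 1 := by
    calc x * y * (x * y) = x * (y * x) * y := by group
      _ = x * (x * y) * y := by rw [hyxc]
      _ = (x * x) * (y * y) := by group
      _ = 1 := by rw [hxx, hyy, a.zz]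
  have hxinv : x⁻¹ = x * z := by
    apply inv_eq_of_mul_eq_one_right
    rw [← mul_assoc, hxx, a.zz]
  rcases a.V2 _ (hcon _ hxy2) with h1 | h1
  · apply hyxz
    rw [← hxinv]
    exact eq_inv_of_mul_eq_one_right h1
  · apply hyx
    have h2 : y = x⁻¹ * z := by rw [← h1, inv_mul_cancel_left]
    rw [h2, hxinv, mul_assoc, a.zz, mul_one]

/-- (ii) the involutions commuting with a non-central involution `t` are `z`, `t`, `t * z` -/
theorem A1.invol_cent [Finite X] (a : A1 X z)
    (noE8 : ∀ E : Subgroup X, E.Normal → (∀ e ∈ E, e * e = 1) → Nat.card E ≤ 4)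
    {t s : X} (ht : t * t = 1) (htV : t ∉ omZ X) (hs : s * s = 1) (hst : s * t = t * s) :
    s = 1 ∨ s = z ∨ s = t ∨ s = t * z := by
  obtain ⟨E, hEdef⟩ : ∃ E : Subgroup X, E = Subgroup.closure ({s, t, z} : Set X) := ⟨_, rfl⟩
  have hsE : s ∈ E := by rw [hEdef]; exact Subgroup.subset_closure (by simp)
  have htE : t ∈ E := by rw [hEdef]; exact Subgroup.subset_closure (by simp)
  have hzE : z ∈ E := by rw [hEdef]; exact Subgroup.subset_closure (by simp)
  have hgen : ∀ x ∈ ({s, t, z} : Set X), ∀ y ∈ ({s, t, z} : Set X), x * y = y * x := by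
    intro x hx y hy
    simp only [Set.mem_insert_iff, Set.mem_singleton_iff] at hx hy
    rcases hx with h1 | h1 | h1 <;> rcases hy with h2 | h2 | h2 <;> rw [h1, h2]
    · exact hst
    · exact a.zc s
    · exact hst.symm
    · exact a.zc t
    · exact (a.zc s).symm
    · exact (a.zc t).symm
  have hEcomm : ∀ x ∈ E, ∀ y ∈ E, x * y = y * x := by
    have h1 : E ≤ Subgroup.centralizer ({s, t, z} : Set X) := by
      rw [hEdef, Subgroup.closure_le]
      intro x hx
      exact Subgroup.mem_centralizer_iff.mpr (fun g hg => hgen g hg x hx)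
    have h2 : E ≤ Subgroup.centralizer (E : Set X) := by
      conv_lhs => rw [hEdef]
      rw [Subgroup.closure_le]
      intro x hx
      refine Subgroup.mem_centralizer_iff.mpr (fun e he => ?_)
      exact ((Subgroup.mem_centralizer_iff.mp (h1 he)) x hx).symm
    intro x hx y hy
    exact ((Subgroup.mem_centralizer_iff.mp (h2 hx)) y hy).symm
  have hE2 : ∀ e ∈ E, e * e = 1 := by
    intro e he
    have he' : e ∈ Subgroup.closure ({s, t, z} : Set X) := by rw [← hEdef]; exact he
    refine Subgroup.closure_induction (p := fun e _ => e * e = 1) ?_ ?_ ?_ ?_ he'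
    · intro x hx
      simp only [Set.mem_insert_iff, Set.mem_singleton_iff] at hx
      rcases hx with h1 | h1 | h1 <;> rw [h1]
      · exact hs
      · exact ht
      · exact a.zz
    · exact one_mul 1
    · intro x y hx hy hx2 hy2
      have hxy : y * x = x * y :=
        hEcomm y (by rw [hEdef]; exact hy) x (by rw [hEdef]; exact hx)
      calc x * y * (x * y) = x * (y * x) * y := by group
        _ = x * (x * y) * y := by rw [hxy]
        _ = (x * x) * (y * y) := by group
        _ = 1 := by rw [hx2, hy2, one_mul]
    · intro x hx hx2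
      calc x⁻¹ * x⁻¹ = (x * x)⁻¹ := by group
        _ = 1 := by rw [hx2, inv_one]
  have hEn : E.Normal := by
    constructor
    intro e he g
    have h1 : g * e * g⁻¹ = (g * e * g⁻¹ * e⁻¹) * e := by group
    rw [h1]
    refine E.mul_mem ?_ he
    rcases a.V2 _ (a.comm g e) with h | h
    · rw [h]; exact E.one_mem
    · rw [h]; exact hzE
  exact a.mem_four htV E hzE htE (noE8 E hEn hE2) s hsE

/-- (iii) the number of involutions -/
theorem A1.card_invol [Finite X] (a : A1 X z) (hX : Nat.card X = 32)
    (noE8 : ∀ E : Subgroup X, E.Normal → (∀ e ∈ E, e * e = 1) → Nat.card E ≤ 4) :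
    Nat.card {x : X // orderOf x = 2} = 11 := by
  classical
  have : Fintype X := Fintype.ofFinite X
  have : Fact (Nat.Prime 2) := ⟨Nat.prime_two⟩
  obtain ⟨t, ht, htV⟩ := a.exists_invol hX
  obtain ⟨C, hCdef⟩ : ∃ C : Subgroup X, C = (commHom a.comm t).ker := ⟨_, rfl⟩
  have hCmem : ∀ g, g ∈ C ↔ g * t = t * g := by
    intro g
    rw [hCdef]
    exact mem_ker_commHom a.comm t g
  have hCnot : ∀ g, g ∉ C → g ∉ (commHom a.comm t).ker := by
    intro g hg
    rw [← hCdef]
    exact hg
  have hCidx : C.index = 2 := by rw [hCdef]; exact a.ker_index htV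
  have hCcard : Nat.card C = 16 := by
    have h1 := Subgroup.card_mul_index C
    rw [hCidx, hX] at h1
    omega
  have htC : t ∈ C := (hCmem t).mpr rfl
  have hzC : z ∈ C := (hCmem z).mpr (a.zc t).symm
  -- the involutions in `C`
  have hA : (Finset.univ.filter (· ∈ C)).filter (fun x : X => x * x = 1) = {1, z, t, t * z} := by
    ext s
    simp only [Finset.mem_filter, Finset.mem_univ, true_and, Finset.mem_insert,
      Finset.mem_singleton]
    constructor
    · rintro ⟨hsC, hs2⟩
      exact a.invol_cent noE8 ht htV hs2 ((hCmem s).mp hsC)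
    · intro hs
      rcases hs with h1 | h1 | h1 | h1 <;> rw [h1]
      · exact ⟨C.one_mem, one_mul 1⟩
      · exact ⟨hzC, a.zz⟩
      · exact ⟨htC, ht⟩
      · refine ⟨C.mul_mem htC hzC, ?_⟩
        calc t * z * (t * z) = t * (z * t) * z := by group
          _ = t * (t * z) * z := by rw [← a.zc t]
          _ = (t * t) * (z * z) := by group
          _ = 1 := by rw [ht, a.zz, one_mul]
  have hAcard : ((Finset.univ.filter (· ∈ C)).filter (fun x : X => x * x = 1)).card = 4 := by
    rw [hA]
    exact a.card_four htV
  -- the involutions outside `C`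
  have hScard : (Finset.univ.filter (fun x : X => x ∉ C)).card = 16 := by
    have h1 := Finset.card_filter_add_card_filter_not (s := (Finset.univ : Finset X))
      (p := fun x => x ∈ C)
    have h2 : (Finset.univ.filter (fun x : X => x ∈ C)).card = 16 := by
      rw [← hCcard, Nat.card_eq_fintype_card, Fintype.card_subtype]
    have h3 : (Finset.univ : Finset X).card = 32 := by
      rw [Finset.card_univ, ← Nat.card_eq_fintype_card, hX]
    rw [h2, h3] at h1
    omega
  have hbij : ((Finset.univ.filter (fun x : X => x ∉ C)).filter (fun x : X => x * x = 1)).card =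
      ((Finset.univ.filter (fun x : X => x ∉ C)).filter (fun x : X => ¬ x * x = 1)).card := by
    refine Finset.card_nbij' (· * t) (· * t) ?_ ?_ ?_ ?_
    · intro y hy
      simp only [Finset.coe_filter, Finset.mem_filter, Finset.mem_univ, true_and,
        Set.mem_ofPred_eq] at hy ⊢
      obtain ⟨hyC, hy2⟩ := hy
      refine ⟨fun hc => hyC ((C.mul_mem_cancel_right htC).mp hc), ?_⟩
      rw [a.pair ht (hCnot y hyC), hy2, mul_one]
      exact a.z1
    · intro y hy
      simp only [Finset.coe_filter, Finset.mem_filter, Finset.mem_univ, true_and,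
        Set.mem_ofPred_eq] at hy ⊢
      obtain ⟨hyC, hy2⟩ := hy
      refine ⟨fun hc => hyC ((C.mul_mem_cancel_right htC).mp hc), ?_⟩
      rw [a.pair ht (hCnot y hyC)]
      rcases a.V2 _ (a.sq y) with h | h
      · exact absurd h hy2
      · rw [h]; exact a.zz
    · intro y _
      show y * t * t = y
      rw [mul_assoc, ht, mul_one]
    · intro y _
      show y * t * t = y
      rw [mul_assoc, ht, mul_one]
  have hBcard : ((Finset.univ.filter (fun x : X => x ∉ C)).filter
      (fun x : X => x * x = 1)).card = 8 := by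
    have h1 := Finset.card_filter_add_card_filter_not
      (s := Finset.univ.filter (fun x : X => x ∉ C)) (p := fun x : X => x * x = 1)
    rw [← hbij, hScard] at h1
    omega
  have hJ : (Finset.univ.filter (fun x : X => x * x = 1)).card = 12 := by
    have h1 := Finset.card_filter_add_card_filter_not
      (s := Finset.univ.filter (fun x : X => x * x = 1)) (p := fun x : X => x ∈ C)
    have e1 : (Finset.univ.filter (fun x : X => x * x = 1)).filter (fun x : X => x ∈ C) =
        (Finset.univ.filter (· ∈ C)).filter (fun x : X => x * x = 1) := Finset.filter_comm _ _ _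
    have e2 : (Finset.univ.filter (fun x : X => x * x = 1)).filter (fun x : X => ¬ x ∈ C) =
        (Finset.univ.filter (fun x : X => x ∉ C)).filter (fun x : X => x * x = 1) :=
      Finset.filter_comm _ _ _
    rw [e1, e2, hAcard, hBcard] at h1
    omega
  rw [Nat.card_eq_fintype_card, Fintype.card_subtype]
  have hE : Finset.univ.filter (fun x : X => orderOf x = 2) =
      (Finset.univ.filter (fun x : X => x * x = 1)).erase 1 := by
    ext x
    simp only [Finset.mem_filter, Finset.mem_univ, true_and, Finset.mem_erase]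
    rw [orderOf_eq_prime_iff, pow_two]
    exact and_comm
  rw [hE, Finset.card_erase_of_mem (by simp), hJ]

end

/-- Package (A1e) of S1904. -/
theorem lemA1e32 : LemA1e32.{u} := by
  intro X _ _ A h hV hX
  obtain ⟨z, a⟩ := exists_A1 h hV
  obtain ⟨hsp, hZ⟩ := special_of h.hyp.two h.cen h.sq h.comm h.der
  exact ⟨⟨hsp, by rw [hZ]; exact hV⟩, hX, a.card_invol hX h.hyp.noE8⟩

end Cfsg.Agent.Lib.Helper65.Scn
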